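import Mathlib
import Cfsg.Agent.Lib.Helper1.PNil
import Cfsg.Agent.Lib.Helper1.HallRel
import Cfsg.Agent.Lib.Helper2.Jordan

set_option autoImplicit false
set_option linter.unusedSectionVars false
open scoped Pointwise

/-! Class sizes prime to `p`: Camina's lemma, products of subgroups of coprime index. -/

namespace Cfsg.Agent.Lib.Helper9.Camina

open Cfsg.Agent.Lib.Helper1

variable {G : Type*} [Group G]

/-- the `p`-part / `p'`-part decomposition of an element -/
theorem exists_decomp [Finite G] (p : ℕ) [hp : Fact p.Prime] (g : G) :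
    ∃ u y : G, g = u * y ∧ Commute u y ∧ (∃ k : ℕ, u ^ p ^ k = 1) ∧ (orderOf y).Coprime p := by
  have hn : orderOf g ≠ 0 := (orderOf_pos g).ne'
  obtain ⟨k, m, hm, hkm⟩ := Nat.exists_eq_pow_mul_and_not_dvd hn p hp.out.ne_one
  have hcop : Nat.Coprime (p ^ k) m :=
    Nat.Coprime.pow_left k ((Nat.Prime.coprime_iff_not_dvd hp.out).mpr hm)
  have hb := Nat.gcd_eq_gcd_ab (p ^ k) m
  rw [hcop, Nat.cast_one] at hb
  refine ⟨g ^ ((m : ℤ) * Nat.gcdB (p ^ k) m), g ^ (((p ^ k : ℕ) : ℤ) * Nat.gcdA (p ^ k) m), ?_, ?_,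
    ⟨k, ?_⟩, ?_⟩
  · rw [← zpow_add, add_comm, ← hb, zpow_one]
  · exact (Commute.refl g).zpow_zpow _ _
  · rw [← zpow_natCast, ← zpow_mul]
    have : (m : ℤ) * Nat.gcdB (p ^ k) m * ((p ^ k : ℕ) : ℤ) = ((orderOf g : ℕ) : ℤ) * Nat.gcdB (p ^ k) m := by
      rw [hkm]; push_cast; ring
    rw [this, zpow_mul, zpow_natCast, pow_orderOf_eq_one, one_zpow]
  · have h1 : (g ^ (((p ^ k : ℕ) : ℤ) * Nat.gcdA (p ^ k) m)) ^ m = 1 := by
      rw [← zpow_natCast, ← zpow_mul]
      have : ((p ^ k : ℕ) : ℤ) * Nat.gcdA (p ^ k) m * (m : ℤ) = ((orderOf g : ℕ) : ℤ) * Nat.gcdA (p ^ k) m := by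
        rw [hkm]; push_cast; ring
      rw [this, zpow_mul, zpow_natCast, pow_orderOf_eq_one, one_zpow]
    exact Nat.Coprime.coprime_dvd_left (orderOf_dvd_of_pow_eq_one h1)
      ((Nat.Prime.coprime_iff_not_dvd hp.out).mpr hm).symm

theorem isPGroup_zpowers_of_pow {p : ℕ} {u : G} (h : ∃ k : ℕ, u ^ p ^ k = 1) :
    IsPGroup p (Subgroup.zpowers u) := by
  obtain ⟨k, hk⟩ := h
  rintro ⟨z, hz⟩
  obtain ⟨i, rfl⟩ := Subgroup.mem_zpowers_iff.mp hz
  refine ⟨k, Subtype.ext ?_⟩
  change (u ^ i) ^ p ^ k = 1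
  rw [← zpow_natCast, ← zpow_mul, mul_comm, zpow_mul, zpow_natCast, hk, one_zpow]

/-- subgroups of coprime index factorise the group -/
theorem exists_mul_of_coprime_index [Finite G] (H K : Subgroup G) (h : H.index.Coprime K.index)
    (g : G) : ∃ u ∈ H, ∃ c ∈ K, g = u * c := by
  have h1 : K.index ∣ K.relIndex H := by
    have h2 : K.index ∣ (H ⊓ K).relIndex H * H.index := by
      rw [Subgroup.relIndex_mul_index inf_le_left]
      exact Subgroup.index_dvd_of_le inf_le_right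
    rw [Subgroup.inf_relIndex_left] at h2
    exact h.symm.dvd_of_dvd_mul_right h2
  have hst : MulAction.stabilizer ↥H ((1 : G) : G ⧸ K) = K.subgroupOf H := by
    ext u
    rw [MulAction.mem_stabilizer_iff, Subgroup.mem_subgroupOf]
    change (((u : G) * 1 : G) : G ⧸ K) = ((1 : G) : G ⧸ K) ↔ _
    rw [QuotientGroup.eq, mul_one, mul_one, Subgroup.inv_mem_iff]
  have h3 := MulAction.index_stabilizer ↥H ((1 : G) : G ⧸ K)
  rw [hst] at h3
  have h4 : MulAction.orbit ↥H ((1 : G) : G ⧸ K) = Set.univ := by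
    apply Set.eq_of_subset_of_ncard_le (Set.subset_univ _) _ (Set.toFinite _)
    rw [Set.ncard_univ, ← h3, ← Subgroup.index_eq_card]
    exact Nat.le_of_dvd (Nat.pos_of_ne_zero Subgroup.index_ne_zero_of_finite) h1
  have h5 : (g : G ⧸ K) ∈ MulAction.orbit ↥H ((1 : G) : G ⧸ K) := by rw [h4]; trivial
  obtain ⟨u, hu⟩ := h5
  have hu' : (((u : G) * 1 : G) : G ⧸ K) = (g : G ⧸ K) := hu
  rw [QuotientGroup.eq, mul_one] at hu'
  exact ⟨u, u.2, _, hu', by group⟩

/-- a Sylow subgroup of a subgroup of index prime to `p` through a given `p`-element -/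
theorem exists_sylow_le [Finite G] {p : ℕ} [hp : Fact p.Prime] (C : Subgroup G) (hC : ¬ p ∣ C.index)
    {u : G} (hu : u ∈ C) (hup : ∃ k : ℕ, u ^ p ^ k = 1) :
    ∃ S : Sylow p G, u ∈ (S : Subgroup G) ∧ (S : Subgroup G) ≤ C := by
  have h1 : IsPGroup p (Subgroup.zpowers (⟨u, hu⟩ : ↥C)) := by
    apply isPGroup_zpowers_of_pow
    obtain ⟨k, hk⟩ := hup
    exact ⟨k, Subtype.ext hk⟩
  obtain ⟨S', hS'⟩ := h1.exists_le_sylow
  have hfac : (Nat.card G).factorization p = (Nat.card C).factorization p := by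
    rw [← C.card_mul_index, Nat.factorization_mul Nat.card_pos.ne' Subgroup.index_ne_zero_of_finite,
      Finsupp.add_apply, Nat.factorization_eq_zero_of_not_dvd hC, add_zero]
  have hc : Nat.card ((S' : Subgroup ↥C).map C.subtype) = p ^ (Nat.card G).factorization p := by
    rw [Subgroup.card_map_of_injective C.subtype_injective, hfac]
    exact S'.card_eq_multiplicity
  refine ⟨Sylow.ofCard _ hc, ?_, ?_⟩
  · exact ⟨⟨u, hu⟩, hS' (Subgroup.mem_zpowers _), rfl⟩
  · exact Subgroup.map_subtype_le _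

/-- Camina's lemma: if all `p'`-elements have class size prime to `p`, then `p'`-elements commute
with `p`-elements. -/
theorem commute_of_index [Finite G] {p : ℕ} [hp : Fact p.Prime]
    (H : ∀ y : G, (orderOf y).Coprime p → ¬ p ∣ (Subgroup.centralizer ({y} : Set G)).index)
    (y t : G) (hy : (orderOf y).Coprime p) (ht : ∃ k : ℕ, t ^ p ^ k = 1) : Commute y t := by
  obtain ⟨P⟩ : Nonempty (Sylow p G) := inferInstance
  set M := (P : Subgroup G) ⊔ Subgroup.centralizer ((P : Subgroup G) : Set G) with hM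
  have hcover : ∀ g : G, ∃ v : G, g ∈ MulAut.conj v • M := by
    intro g
    obtain ⟨u, z, rfl, huz, hu, hz⟩ := exists_decomp p g
    obtain ⟨S, huS, hSz⟩ := exists_sylow_le _ (H z hz)
      (Subgroup.mem_centralizer_singleton_iff.mpr huz.eq) hu
    obtain ⟨v, hv⟩ := MulAction.exists_smul_eq G P S
    have hv' : MulAut.conj v • (P : Subgroup G) = (S : Subgroup G) := by
      rw [← hv, Sylow.coe_subgroup_smul]
    refine ⟨v, Subgroup.mul_mem _ ?_ ?_⟩
    · exact conj_smul_mono v le_sup_left (hv' ▸ huS)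
    · apply conj_smul_mono v (le_sup_right : _ ≤ M)
      rw [conj_smul_centralizer, hv', Subgroup.mem_centralizer_iff]
      intro s hs
      exact (Subgroup.mem_centralizer_singleton_iff.mp (hSz hs))
  have hMtop : M = ⊤ := by
    by_contra hne
    obtain ⟨x, hx⟩ := Cfsg.Agent.Lib.Helper2.Jordan.exists_not_mem_conj M hne
    obtain ⟨v, hv⟩ := hcover x
    exact hx v hv
  have hPn : (P : Subgroup G).Normal := by
    rw [← Subgroup.normalizer_eq_top_iff, eq_top_iff, ← hMtop]
    exact sup_le Subgroup.le_normalizer (Subgroup.centralizer_le_normalizer _)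
  have huniq : ∀ S : Sylow p G, (S : Subgroup G) = (P : Subgroup G) := by
    intro S
    obtain ⟨v, hv⟩ := MulAction.exists_smul_eq G P S
    rw [← hv, Sylow.coe_subgroup_smul]
    exact Subgroup.Normal.conj_smul_eq_self v _
  obtain ⟨S₁, -, hS₁⟩ := exists_sylow_le _ (H y hy) (Subgroup.one_mem _) ⟨0, by simp⟩
  obtain ⟨S₂, hS₂⟩ := (isPGroup_zpowers_of_pow ht).exists_le_sylow
  have h1 : t ∈ (P : Subgroup G) := by rw [← huniq S₂]; exact hS₂ (Subgroup.mem_zpowers t)
  rw [huniq S₁] at hS₁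
  exact (Subgroup.mem_centralizer_singleton_iff.mp (hS₁ h1)).symm

/-- an element of `p`-power order whose class has `p`-power size generates a normal `p`-subgroup -/
theorem isPGroup_normalClosure [Finite G] {p a : ℕ} [hp : Fact p.Prime] {x : G}
    (hx : ∃ k : ℕ, x ^ p ^ k = 1) (hi : (Subgroup.centralizer ({x} : Set G)).index = p ^ a) :
    IsPGroup p (Subgroup.normalClosure ({x} : Set G)) := by
  obtain ⟨P, hP⟩ := (isPGroup_zpowers_of_pow hx).exists_le_sylow
  have hxP : x ∈ (P : Subgroup G) := hP (Subgroup.mem_zpowers x)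
  apply P.isPGroup'.to_le
  unfold Subgroup.normalClosure
  rw [Subgroup.closure_le]
  intro z hz
  obtain ⟨w, hw, hwz⟩ := Group.mem_conjugatesOfSet_iff.mp hz
  rw [Set.mem_singleton_iff.mp hw] at hwz
  obtain ⟨g, rfl⟩ := isConj_iff.mp hwz
  have hcop : (P : Subgroup G).index.Coprime (Subgroup.centralizer ({x} : Set G)).index := by
    rw [hi]
    exact Nat.Coprime.pow_right a ((Nat.Prime.coprime_iff_not_dvd hp.out).mpr P.not_dvd_index).symm
  obtain ⟨u, hu, c, hc, rfl⟩ := exists_mul_of_coprime_index _ _ hcop g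
  have h1 : c * x = x * c := Subgroup.mem_centralizer_singleton_iff.mp hc
  have h2 : u * c * x * (u * c)⁻¹ = u * x * u⁻¹ := by
    calc u * c * x * (u * c)⁻¹ = u * (c * x) * c⁻¹ * u⁻¹ := by group
      _ = u * x * u⁻¹ := by rw [h1]; group
  rw [SetLike.mem_coe, h2]
  exact (P : Subgroup G).mul_mem ((P : Subgroup G).mul_mem hu hxP) ((P : Subgroup G).inv_mem hu)

end Cfsg.Agent.Lib.Helper9.Camina
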