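import Mathlib

set_option autoImplicit false

/-! A 1-cocycle with values in an abelian normal subgroup `A` which vanishes on a subgroup `T` of
index prime to `|A|` is a coboundary. -/

namespace Cfsg.Agent.Lib.Helper9.Cocyc

open scoped IsMulCommutative

variable {G : Type*} [Group G] [Finite G]

theorem cocycle_split (A : Subgroup G) [hn : A.Normal] [hA : IsMulCommutative A] (T : Subgroup G)
    (d : G → G) (hdA : ∀ g, d g ∈ A) (hd : ∀ g h, d (g * h) = d g * (g * d h * g⁻¹))
    (hT : ∀ t ∈ T, d t = 1) (hcop : (Nat.card A).Coprime T.index) :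
    ∃ a ∈ A, ∀ h, d h = a * (h * a⁻¹ * h⁻¹) := by
  classical
  have := Fintype.ofFinite (G ⧸ T)
  -- the action of `G` on `A`
  let cA : G → A → A := fun g a => ⟨g * a * g⁻¹, hn.conj_mem a a.2 g⟩
  have cA_mul : ∀ g (a b : A), cA g (a * b) = cA g a * cA g b := by
    intro g a b
    apply Subtype.ext
    simp [cA, mul_assoc]
  let cH : G → (A →* A) := fun g => MonoidHom.mk' (cA g) (cA_mul g)
  let dA : G → A := fun g => ⟨d g, hdA g⟩
  have hdA' : ∀ g h, dA (g * h) = dA g * cH g (dA h) := by
    intro g h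
    apply Subtype.ext
    exact hd g h
  have hconst : ∀ g g' : G, (QuotientGroup.leftRel T) g g' → dA g = dA g' := by
    intro g g' h
    rw [QuotientGroup.leftRel_apply] at h
    have e : g' = g * (g⁻¹ * g') := by group
    rw [e, hdA']
    have : dA (g⁻¹ * g') = 1 := Subtype.ext (hT _ h)
    rw [this, map_one, mul_one]
  let dq : G ⧸ T → A := Quotient.lift dA hconst
  have hdq : ∀ g : G, dq (g : G ⧸ T) = dA g := fun g => rfl
  let b : A := ∏ x : G ⧸ T, dq x
  have key : ∀ h : G, dA h ^ T.index * cH h b = b := by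
    intro h
    have h1 : cH h b = ∏ x : G ⧸ T, cH h (dq x) := map_prod _ _ _
    have h2 : ∀ x : G ⧸ T, dA h * cH h (dq x) = dq (h • x) := by
      intro x
      induction x using QuotientGroup.induction_on with
      | H g =>
        rw [hdq, ← hdA']
        rfl
    have h3 : ∏ x : G ⧸ T, dq (h • x) = b :=
      Fintype.prod_equiv (MulAction.toPerm h) _ _ (fun x => rfl)
    rw [h1, ← h3]
    have h4 : ∏ x : G ⧸ T, dq (h • x) = ∏ x : G ⧸ T, (dA h * cH h (dq x)) :=
      Finset.prod_congr rfl (fun x _ => (h2 x).symm)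
    rw [h4, Finset.prod_mul_distrib, Finset.prod_const, Finset.card_univ, Subgroup.index,
      Nat.card_eq_fintype_card]
  -- invert the index
  obtain ⟨m, hm⟩ : ∃ m : ℤ, ∀ a : A, (a ^ T.index) ^ m = a :=
    ⟨(Nat.card A).gcdB T.index, fun a => (powCoprime hcop).left_inv a⟩
  refine ⟨(b ^ m : A), (b ^ m : A).2, ?_⟩
  intro h
  have h5 : dA h = b ^ m * (cH h (b ^ m))⁻¹ := by
    have := key h
    have h6 : dA h ^ T.index = b * (cH h b)⁻¹ := by
      rw [eq_mul_inv_iff_mul_eq]; exact this
    rw [← hm (dA h), h6, mul_zpow, inv_zpow, map_zpow]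
  have h7 := congrArg Subtype.val h5
  simp only [dA, cH, cA, MonoidHom.mk'_apply, Subgroup.coe_mul, Subgroup.coe_inv] at h7
  rw [h7]
  simp [mul_assoc]

end Cfsg.Agent.Lib.Helper9.Cocyc
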