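import Mathlib
import Cfsg.Agent.Lib.Helper2.Supersolvable
import Cfsg.Agent.Lib.Helper2.Supersolvable2

set_option autoImplicit false
set_option linter.unusedSectionVars false

/-! Tools for Huppert's criterion: maximal subgroups of prime index. -/

namespace Cfsg.Agent.Lib.Helper9.Hup

open Cfsg.Agent.Lib.Helper2.Supersolvable

universe u

/-- the smallest normal subgroup with abelian quotient of exponent dividing `p - 1` -/
def DD (p : ℕ) (X : Type*) [Group X] : Subgroup X :=
  sInf {K : Subgroup X | K.Normal ∧ (∀ a b : X, a * b * a⁻¹ * b⁻¹ ∈ K) ∧ ∀ a : X, a ^ (p - 1) ∈ K}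

theorem mem_DD {p : ℕ} {X : Type*} [Group X] {x : X} : x ∈ DD p X ↔
    ∀ K : Subgroup X, K.Normal → (∀ a b : X, a * b * a⁻¹ * b⁻¹ ∈ K) →
      (∀ a : X, a ^ (p - 1) ∈ K) → x ∈ K := by
  unfold DD
  rw [Subgroup.mem_sInf]
  constructor
  · intro h K h1 h2 h3
    exact h K ⟨h1, h2, h3⟩
  · rintro h K ⟨h1, h2, h3⟩
    exact h K h1 h2 h3

theorem comm_mem_DD (p : ℕ) {X : Type*} [Group X] (a b : X) : a * b * a⁻¹ * b⁻¹ ∈ DD p X :=
  mem_DD.mpr (fun _ _ h2 _ => h2 a b)

theorem pow_mem_DD (p : ℕ) {X : Type*} [Group X] (a : X) : a ^ (p - 1) ∈ DD p X :=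
  mem_DD.mpr (fun _ _ _ h3 => h3 a)

theorem conj_mem_DD {p : ℕ} {X : Type*} [Group X] {x : X} (hx : x ∈ DD p X) (g : X) :
    g * x * g⁻¹ ∈ DD p X :=
  mem_DD.mpr (fun K h1 h2 h3 => h1.conj_mem x (mem_DD.mp hx K h1 h2 h3) g)

theorem map_mem_DD {p : ℕ} {X Y : Type*} [Group X] [Group Y] (f : X →* Y) {x : X}
    (hx : x ∈ DD p X) : f x ∈ DD p Y := by
  rw [mem_DD]
  intro K h1 h2 h3
  have := mem_DD.mp hx (K.comap f) (h1.comap f)
    (fun a b => by
      rw [Subgroup.mem_comap]
      simpa using h2 (f a) (f b))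
    (fun a => by
      rw [Subgroup.mem_comap]
      simpa using h3 (f a))
  exact this

/-- `DD p X` centralizes every normal subgroup of order `p`. -/
theorem DD_commute {p : ℕ} (hp : p.Prime) {X : Type*} [Group X] (Z : Subgroup X) [hZ : Z.Normal]
    (hcard : Nat.card Z = p) {x : X} (hx : x ∈ DD p X) {z : X} (hz : z ∈ Z) : x * z = z * x := by
  haveI : Fact p.Prime := ⟨hp⟩
  haveI : Finite Z := Nat.finite_of_card_ne_zero (by rw [hcard]; exact hp.ne_zero)
  haveI : IsCyclic Z := isCyclic_of_prime_card hcard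
  let φ : X →* MulAut Z := MulAut.conjNormal
  have hcomm : ∀ α β : MulAut Z, α * β = β * α := by
    intro α β
    apply (IsCyclic.mulAutMulEquiv Z).injective
    rw [map_mul, map_mul, mul_comm]
  have hpow : ∀ α : MulAut Z, α ^ (p - 1) = 1 := by
    intro α
    have h1 : Nat.card (MulAut Z) = p - 1 := by
      rw [IsCyclic.card_mulAut, hcard, Nat.totient_prime hp]
    rw [← h1]
    exact pow_card_eq_one'
  have hk : x ∈ φ.ker := by
    apply mem_DD.mp hx φ.ker inferInstance
    · intro a b
      rw [MonoidHom.mem_ker, map_mul, map_mul, map_mul, map_inv, map_inv, hcomm (φ a) (φ b)]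
      group
    · intro a
      rw [MonoidHom.mem_ker, map_pow, hpow]
  have h2 : φ x ⟨z, hz⟩ = ⟨z, hz⟩ := by
    rw [MonoidHom.mem_ker.mp hk]; rfl
  have h3 : x * z * x⁻¹ = z := by
    have := congrArg Subtype.val h2
    simpa [φ] using this
  rw [mul_inv_eq_iff_eq_mul] at h3
  exact h3

theorem eq_one_of_pow_coprime {X : Type*} [Group X] {z : X} {m n : ℕ} (hm : z ^ m = 1)
    (hn : z ^ n = 1) (h : m.Coprime n) : z = 1 := by
  have h3 := pow_gcd_eq_one.mpr ⟨hm, hn⟩
  rw [h, pow_one] at h3
  exact h3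

/-- In a supersolvable group, `p'`-elements of `DD p X` centralize the normal `p`-subgroups. -/
theorem DD_centralizes {p : ℕ} (hp : p.Prime) : ∀ (n : ℕ) (X : Type u) [Group X] [Finite X],
    Nat.card X = n → Cfsg.IsSupersolvable X → ∀ Q : Subgroup X, Q.Normal → IsPGroup p Q →
    ∀ x ∈ Q, ∀ b ∈ DD p X, (orderOf b).Coprime p → b * x = x * b := by
  intro n
  induction n using Nat.strong_induction_on with
  | _ n ih =>
    intro X _ _ hn hX Q hQn hQp x hx b hb hbp
    rcases subsingleton_or_nontrivial X with hs | hnt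
    · exact Subsingleton.elim _ _
    obtain ⟨g, hgn, hgp⟩ := exists_normal_prime_card hX
    obtain ⟨Z, hZ⟩ : ∃ Z : Subgroup X, Z = Subgroup.zpowers g := ⟨_, rfl⟩
    rw [← hZ] at hgn hgp
    have hlt : Nat.card (X ⧸ Z) < n := hn ▸ card_quotient_lt Z hgp.one_lt
    have hq := ih _ hlt (X ⧸ Z) rfl
      (isSupersolvable_of_surjective (QuotientGroup.mk'_surjective Z) hX)
      (Q.map (QuotientGroup.mk' Z)) (hQn.map _ (QuotientGroup.mk'_surjective Z))
      (hQp.map _) (QuotientGroup.mk' Z x) (Subgroup.mem_map_of_mem _ hx)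
      (QuotientGroup.mk' Z b) (map_mem_DD _ hb)
      (Nat.Coprime.coprime_dvd_left (orderOf_map_dvd _ b) hbp)
    have hz : b * x * b⁻¹ * x⁻¹ ∈ Z := by
      rw [← QuotientGroup.eq_one_iff, ← QuotientGroup.mk'_apply, map_mul, map_mul, map_mul, hq,
        map_inv, map_inv]
      group
    have hzQ : b * x * b⁻¹ * x⁻¹ ∈ Q := Q.mul_mem (hQn.conj_mem x hx b) (Q.inv_mem hx)
    obtain ⟨z, hzdef⟩ : ∃ z : X, z = b * x * b⁻¹ * x⁻¹ := ⟨_, rfl⟩
    rw [← hzdef] at hz hzQ
    have hzr : z ^ Nat.card Z = 1 := by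
      have := pow_card_eq_one' (x := (⟨z, hz⟩ : Z))
      exact congrArg Subtype.val this
    have hz1 : z = 1 := by
      by_cases hrp : Nat.card Z = p
      · have hbz : b * z = z * b := DD_commute hp Z hrp hb hz
        have hconj : b * x * b⁻¹ = z * x := by rw [hzdef]; group
        have hk : ∀ k : ℕ, b ^ k * x * (b ^ k)⁻¹ = z ^ k * x := by
          intro k
          induction k with
          | zero => simp
          | succ k ihk =>
            have hbzk : b * z ^ k * b⁻¹ = z ^ k := by
              have : Commute b (z ^ k) := (show Commute b z from hbz).pow_right k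
              rw [this.eq]; group
            calc b ^ (k + 1) * x * (b ^ (k + 1))⁻¹ = b * (b ^ k * x * (b ^ k)⁻¹) * b⁻¹ := by
                  rw [pow_succ']; group
              _ = b * (z ^ k * x) * b⁻¹ := by rw [ihk]
              _ = (b * z ^ k * b⁻¹) * (b * x * b⁻¹) := by group
              _ = z ^ k * (z * x) := by rw [hbzk, hconj]
              _ = z ^ (k + 1) * x := by rw [pow_succ]; group
        have h1 := hk (orderOf b)
        rw [pow_orderOf_eq_one] at h1
        have h2 : z ^ orderOf b = 1 := by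
          have : x = z ^ orderOf b * x := by simpa using h1
          exact (mul_eq_right.mp this.symm)
        exact eq_one_of_pow_coprime h2 (hrp ▸ hzr) hbp
      · obtain ⟨k, hk⟩ := hQp ⟨z, hzQ⟩
        have hk' : z ^ (p ^ k) = 1 := congrArg Subtype.val hk
        apply eq_one_of_pow_coprime hzr hk'
        exact Nat.Coprime.pow_right k ((Nat.coprime_primes hgp hp).mpr hrp)
    rw [hzdef] at hz1
    have : b * x = x * b := by
      have := congrArg (fun t => t * (x * b)) hz1
      simpa [mul_assoc] using this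
    exact this

section Eig
open Polynomial


theorem prod_X_sub_C_zmod (p : ℕ) [hp : Fact p.Prime] :
    (∏ a : ZMod p, (X - C a) : (ZMod p)[X]) = X ^ p - X := by
  have h1 := FiniteField.roots_X_pow_card_sub_X (ZMod p)
  rw [ZMod.card] at h1
  have hmonic : (X ^ p - X : (ZMod p)[X]).Monic := by
    apply Polynomial.Monic.sub_of_left (monic_X_pow p)
    rw [degree_X, degree_X_pow]
    exact_mod_cast hp.out.one_lt
  have h2 := Polynomial.prod_multiset_X_sub_C_of_monic_of_roots_card_eq hmonic (by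
    rw [h1, FiniteField.X_pow_card_sub_X_natDegree_eq _ hp.out.one_lt]
    simp [ZMod.card])
  rw [h1] at h2
  exact h2

theorem eigen_lin {p : ℕ} [hp : Fact p.Prime] {W : Type*} [AddCommGroup W] [Module (ZMod p) W]
    [Nontrivial W] (f : W →ₗ[ZMod p] W) (hf : f ^ p = f) :
    ∃ w : W, w ≠ 0 ∧ ∃ a : ZMod p, f w = a • w := by
  by_contra hcon
  push Not at hcon
  have hinj : ∀ a : ZMod p, Function.Injective (aeval f (X - C a : (ZMod p)[X])) := by
    intro a
    rw [injective_iff_map_eq_zero]
    intro w hw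
    by_contra hw0
    apply hcon w hw0 a
    have : f w - a • w = 0 := by simpa using hw
    exact sub_eq_zero.mp this
  have key : ∀ s : Finset (ZMod p),
      Function.Injective (aeval f (∏ a ∈ s, (X - C a) : (ZMod p)[X])) := by
    intro s
    induction s using Finset.induction_on with
    | empty =>
      rw [Finset.prod_empty, map_one]
      exact fun x y h => h
    | insert a s ha ih =>
      rw [Finset.prod_insert ha, map_mul]
      exact (hinj a).comp ih
  have h0 := key Finset.univ
  rw [prod_X_sub_C_zmod] at h0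
  have h1 : aeval f (X ^ p - X : (ZMod p)[X]) = 0 := by
    simp [hf]
  rw [h1] at h0
  obtain ⟨w, hw⟩ := exists_ne (0 : W)
  exact hw (h0 (by simp))

theorem eigen {p : ℕ} [hp : Fact p.Prime] {V : Type*} [CommGroup V] [Nontrivial V]
    (hexp : ∀ v : V, v ^ p = 1) (T : V →* V) (hT : ∀ v, T^[p] v = T v) :
    ∃ v : V, v ≠ 1 ∧ ∃ k : ℕ, T v = v ^ k := by
  let _i : Module (ZMod p) (Additive V) := AddCommGroup.zmodModule (n := p) (fun x => hexp x.toMul)
  let f : Additive V →ₗ[ZMod p] Additive V := (MonoidHom.toAdditive T).toZModLinearMap p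
  have hfa : ∀ (n : ℕ) (w : Additive V), (f ^ n) w = Additive.ofMul (T^[n] w.toMul) := by
    intro n
    induction n with
    | zero => intro w; simp
    | succ n ih =>
      intro w
      rw [pow_succ', Module.End.mul_apply, ih, Function.iterate_succ_apply']
      rfl
  have hf : f ^ p = f := by
    ext w
    rw [hfa, hT]
    rfl
  obtain ⟨w, hw, a, ha⟩ := eigen_lin f hf
  refine ⟨w.toMul, fun h => hw (by simpa using h), a.val, ?_⟩
  have h1 : a • w = a.val • w := by
    conv_lhs => rw [← ZMod.natCast_zmod_val a]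
    exact Nat.cast_smul_eq_nsmul _ _ _
  rw [h1] at ha
  exact congrArg Additive.toMul ha

theorem eigen' {p : ℕ} [hp : Fact p.Prime] {V : Type*} [Group V] [Nontrivial V]
    (hcomm : ∀ a b : V, a * b = b * a)
    (hexp : ∀ v : V, v ^ p = 1) (T : V →* V) (hT : ∀ v, T^[p] v = T v) :
    ∃ v : V, v ≠ 1 ∧ ∃ k : ℕ, T v = v ^ k := by
  let _i : CommGroup V := { (inferInstance : Group V) with mul_comm := hcomm }
  exact eigen hexp T hT

end Eig

variable {G : Type*} [Group G]

theorem isCoatom_comap (N : Subgroup G) [N.Normal] {M' : Subgroup (G ⧸ N)} (hM : IsCoatom M') :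
    IsCoatom (M'.comap (QuotientGroup.mk' N)) := by
  have hsurj := QuotientGroup.mk'_surjective N
  constructor
  · intro h
    apply hM.1
    have := congrArg (Subgroup.map (QuotientGroup.mk' N)) h
    rwa [Subgroup.map_comap_eq_self_of_surjective hsurj,
      Subgroup.map_top_of_surjective _ hsurj] at this
  · intro K hK
    have hker : (QuotientGroup.mk' N).ker ≤ K := le_trans (Subgroup.ker_le_comap _ _) hK.le
    have h1 : M' < K.map (QuotientGroup.mk' N) := by
      apply lt_of_le_of_ne
      · conv_lhs => rw [← Subgroup.map_comap_eq_self_of_surjective hsurj M']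
        exact Subgroup.map_mono hK.le
      · intro he
        apply hK.ne
        rw [he, Subgroup.comap_map_eq_self hker]
    have h2 := hM.2 _ h1
    rw [← Subgroup.comap_map_eq_self hker, h2, Subgroup.comap_top]

theorem hyp_quotient (h : ∀ M : Subgroup G, IsCoatom M → M.index.Prime) (N : Subgroup G)
    [N.Normal] : ∀ M' : Subgroup (G ⧸ N), IsCoatom M' → M'.index.Prime := by
  intro M' hM'
  have := h _ (isCoatom_comap N hM')
  rwa [Subgroup.index_comap_of_surjective _ (QuotientGroup.mk'_surjective N)] at this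

theorem sylow_normal [Finite G] (h : ∀ M : Subgroup G, IsCoatom M → M.index.Prime) {p : ℕ}
    [hp : Fact p.Prime] (hmax : ∀ q : ℕ, q.Prime → q ∣ Nat.card G → q ≤ p) (P : Sylow p G) :
    (P : Subgroup G).Normal := by
  rw [← Subgroup.normalizer_eq_top_iff]
  by_contra hne
  obtain ⟨M, hM, hle⟩ :=
    (eq_top_or_exists_le_coatom (Subgroup.normalizer ((P : Subgroup G) : Set G))).resolve_left hne
  have hq := h M hM
  have hqle : M.index ≤ p := hmax _ hq (Subgroup.index_dvd_card M)
  have hPM : (P : Subgroup G) ≤ M := Subgroup.le_normalizer.trans hle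
  have h1 : Nat.card (Sylow p G) = (Subgroup.normalizer ((P : Subgroup G) : Set G)).index :=
    Sylow.card_eq_index_normalizer P
  have h2 : Nat.card (Sylow p M) =
      (Subgroup.normalizer (((P.subtype hPM : Sylow p M) : Subgroup M) : Set M)).index :=
    Sylow.card_eq_index_normalizer (P.subtype hPM)
  have h3 : Subgroup.normalizer (((P.subtype hPM : Sylow p M) : Subgroup M) : Set M) =
      (Subgroup.normalizer ((P : Subgroup G) : Set G)).subgroupOf M :=
    (Subgroup.subgroupOf_normalizer_eq hPM).symm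
  have h4 := Subgroup.relIndex_mul_index hle
  have m1 : Nat.card (Sylow p G) ≡ 1 [MOD p] := card_sylow_modEq_one p G
  have m2 : Nat.card (Sylow p M) ≡ 1 [MOD p] := card_sylow_modEq_one p M
  rw [h2, h3] at m2
  rw [h1, ← h4] at m1
  have m3 : M.index ≡ 1 [MOD p] := by
    have := (m2.mul_right M.index)
    rw [one_mul] at this
    exact this.symm.trans m1
  have hp2 := hp.out.two_le
  unfold Nat.ModEq at m3
  rw [Nat.mod_eq_of_lt (by omega : 1 < p)] at m3
  rcases hqle.lt_or_eq with hlt | heq
  · rw [Nat.mod_eq_of_lt hlt] at m3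
    exact hq.one_lt.ne' m3
  · rw [heq, Nat.mod_self] at m3
    omega

theorem normal_of_gens (W S T : Subgroup G) (hST : S ⊔ T = ⊤)
    (hS : ∀ g ∈ S, ∀ w ∈ W, g * w * g⁻¹ ∈ W) (hT : ∀ g ∈ T, ∀ w ∈ W, g * w * g⁻¹ ∈ W) :
    W.Normal := by
  rw [← Subgroup.normalizer_eq_top_iff, eq_top_iff, ← hST]
  have aux : ∀ U : Subgroup G, (∀ g ∈ U, ∀ w ∈ W, g * w * g⁻¹ ∈ W) →
      U ≤ Subgroup.normalizer (W : Set G) := by
    intro U hU g hg
    rw [Subgroup.mem_normalizer_iff]
    intro w
    refine ⟨hU g hg w, fun hw => ?_⟩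
    have := hU g⁻¹ (U.inv_mem hg) _ hw
    simpa [mul_assoc] using this
  exact sup_le (aux S hS) (aux T hT)

end Cfsg.Agent.Lib.Helper9.Hup
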