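import Mathlib
import Cfsg.Agent.Lib.Helper9.Sig
import Cfsg.Agent.Lib.Helper9.HHSolv

set_option autoImplicit false
open Pointwise
open scoped commutatorElement

namespace Cfsg.Agent.Lib.Helper9.Sig

open Cfsg.Agent.Lib.Helper1 Cfsg.Agent.Lib.Helper3.CopGen Cfsg.Agent.Lib.Helper9.HHSolv

universe u
variable {G : Type u} [Group G] {p : ℕ} {A : Subgroup G}

theorem exists_hyperplane [Finite G] [hp : Fact p.Prime] (hA : IsPGroup p A) (hA1 : A ≠ ⊥) :
    ∃ B ≤ A, B.relIndex A = p := by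
  obtain ⟨n, hn⟩ := IsPGroup.iff_card.mp hA
  have hn0 : n ≠ 0 := by
    rintro rfl
    rw [pow_zero, Subgroup.card_eq_one] at hn
    exact hA1 hn
  obtain ⟨m, rfl⟩ := Nat.exists_eq_succ_of_ne_zero hn0
  obtain ⟨K, hK⟩ := Sylow.exists_subgroup_card_pow_prime (G := A) p (n := m)
    (by rw [hn]; exact pow_dvd_pow p (Nat.le_succ m))
  refine ⟨K.map A.subtype, Subgroup.map_subtype_le _, ?_⟩
  have h1 := card_mul_relIndex_of_le (Subgroup.map_subtype_le K)
  rw [Subgroup.card_map_of_injective A.subtype_injective, hK, hn, pow_succ] at h1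
  exact Nat.eq_of_mul_eq_mul_left (pow_pos hp.out.pos m) h1

theorem exists_hyperplane_le [Finite G] [hp : Fact p.Prime] (hA : Cfsg.IsElementaryAbelian p A)
    (hA1 : A ≠ ⊥) {B : Subgroup G} (hB : CoCyc A B) : ∃ B' ≤ B, B' ≤ A ∧ B'.relIndex A = p := by
  by_cases hBA : B = A
  · subst hBA
    obtain ⟨B', h1, h2⟩ := exists_hyperplane (ea_pGroup hA) hA1
    exact ⟨B', h1, h1, h2⟩
  · refine ⟨B, le_rfl, hB.1, ?_⟩
    have h1 := card_mul_relIndex_of_le hB.1
    have h2 := hB.card_le hA hp.out.pos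
    obtain ⟨n, hn⟩ := IsPGroup.iff_card.mp (ea_pGroup hA)
    have h3 : B.relIndex A ∣ p ^ n := by rw [← hn]; exact Dvd.intro_left _ h1
    obtain ⟨j, -, hj⟩ := (Nat.dvd_prime_pow hp.out).mp h3
    have h4 : B.relIndex A ≤ p := by
      rw [← h1] at h2
      exact Nat.le_of_mul_le_mul_left h2 Nat.card_pos
    rcases j with _ | _ | j
    · exfalso
      rw [pow_zero] at hj
      rw [hj, mul_one] at h1
      exact hBA (Subgroup.eq_of_le_of_card_ge hB.1 h1.ge)
    · simpa using hj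
    · exfalso
      rw [hj] at h4
      have h5 : p ^ 1 < p ^ (j + 1 + 1) := Nat.pow_lt_pow_right hp.out.one_lt (by omega)
      rw [pow_one] at h5
      omega

/-- KS 11.2.2 -/
theorem le_core_of_hyperplanes [Finite G] [hp : Fact p.Prime] (hA : Cfsg.IsElementaryAbelian p A)
    (hA1 : A ≠ ⊥) {K : Subgroup G} (hK : ¬ p ∣ Nat.card K) (hKs : Group.IsSolvable K)
    (hAK : A ≤ Subgroup.normalizer (K : Set G)) {q : ℕ} [Fact q.Prime] {U : Subgroup G} (hU : U ≤ K)
    (hUq : ¬ q ∣ Nat.card U)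
    (hcomm : ∀ B : Subgroup G, B ≤ A → B.relIndex A = p →
      ¬ q ∣ Nat.card ↥⁅U, K ⊓ Subgroup.centralizer (B : Set G)⁆) :
    U ≤ (Cfsg.pPrimeCore q ↥K).map K.subtype := by
  have hqp : Nat.Prime q := Fact.out
  have hNn : (Cfsg.pPrimeCore q ↥K).Normal := Cfsg.Agent.Lib.Helper1.pPrimeCore_normal q
  have hRn : (Cfsg.pPrimePCore q ↥K).Normal := by
    unfold Cfsg.pPrimePCore
    exact (Cfsg.Agent.Lib.Helper1.pCore_normal q).comap _
  set R := (Cfsg.pPrimePCore q ↥K).map K.subtype with hR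
  have hRK : R ≤ K := Subgroup.map_subtype_le _
  have hAR : A ≤ Subgroup.normalizer (R : Set G) := hAK.trans (Nz_le_Nz_pPrimePCore q K)
  have hRp : ¬ p ∣ Nat.card R := fun h => hK (h.trans (Subgroup.card_dvd_of_le hRK))
  have hgen := gen A R hA.1 hAR (cop_of (ea_pGroup hA) hRp)
  intro u hu
  set u' : ↥K := ⟨u, hU hu⟩ with hu'
  have key : ∀ x ∈ Cfsg.pPrimePCore q ↥K, u' * x * u'⁻¹ * x⁻¹ ∈ Cfsg.pPrimeCore q ↥K := by
    -- the subgroup of elements whose image commutes with the image of `u`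
    set Z : Subgroup ↥K := (Subgroup.centralizer
      {QuotientGroup.mk' (Cfsg.pPrimeCore q ↥K) u'}).comap (QuotientGroup.mk' _) with hZ
    have hRZ : R ≤ Z.map K.subtype := by
      rw [← hgen]
      apply iSup₂_le
      intro B hB y hy
      obtain ⟨B', hB'B, hB'A, hB'i⟩ := exists_hyperplane_le hA hA1 hB
      obtain ⟨y', hy', rfl⟩ := hy.1
      refine ⟨y', ?_, rfl⟩
      have h1 : ⁅u, (y' : G)⁆ ∈ ⁅U, K ⊓ Subgroup.centralizer (B' : Set G)⁆ :=
        Subgroup.commutator_mem_commutator hu ⟨y'.2, Subgroup.centralizer_le hB'B hy.2⟩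
      have h2 : (orderOf ⁅u, (y' : G)⁆).Coprime q := by
        have h3 : orderOf ⁅u, (y' : G)⁆ ∣ Nat.card ↥⁅U, K ⊓ Subgroup.centralizer (B' : Set G)⁆ := by
          have := orderOf_dvd_natCard
            (⟨_, h1⟩ : ↥⁅U, K ⊓ Subgroup.centralizer (B' : Set G)⁆)
          rwa [Subgroup.orderOf_mk] at this
        exact Nat.Coprime.coprime_dvd_left h3
          ((Nat.Prime.coprime_iff_not_dvd hqp).mpr (hcomm B' hB'A hB'i)).symm
      have h4 : ⁅u', y'⁆ ∈ Cfsg.pPrimePCore q ↥K := by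
        rw [commutatorElement_def]
        exact Subgroup.mul_mem _ (hRn.conj_mem _ hy' _) (Subgroup.inv_mem _ hy')
      have h5 : orderOf ⁅u', y'⁆ = orderOf ⁅u, (y' : G)⁆ := by
        rw [← Subgroup.orderOf_coe]
        rfl
      have h6 := mem_core_of_coprime h4 (h5 ▸ h2)
      show y' ∈ Z
      rw [hZ, Subgroup.mem_comap, Subgroup.mem_centralizer_iff]
      intro z hz
      rw [show z = _ from hz]
      have h7 := (QuotientGroup.eq_one_iff (N := Cfsg.pPrimeCore q ↥K) _).2 h6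
      have h8 : QuotientGroup.mk' (Cfsg.pPrimeCore q ↥K) u' * QuotientGroup.mk' _ y' *
          (QuotientGroup.mk' _ u')⁻¹ * (QuotientGroup.mk' _ y')⁻¹ = 1 := by
        rw [commutatorElement_def] at h7
        simpa using h7
      have h9 := mul_inv_eq_one.1 h8
      rw [mul_inv_eq_iff_eq_mul] at h9
      exact h9
    intro x hx
    obtain ⟨x', hx', hxe⟩ := hRZ (⟨x, hx, rfl⟩ : (x : G) ∈ R)
    have hxx : x' = x := Subtype.ext hxe
    have hx'' : x ∈ Z := hxx ▸ hx'
    rw [hZ, Subgroup.mem_comap, Subgroup.mem_centralizer_iff] at hx''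
    have h1 := hx'' _ rfl
    rw [← QuotientGroup.ker_mk' (Cfsg.pPrimeCore q ↥K), MonoidHom.mem_ker]
    simp only [map_mul, map_inv]
    rw [h1]
    group
  have h1 := hh_solv_rel hKs u' key
  have h2 : (orderOf u').Coprime q := by
    have h3 : orderOf u ∣ Nat.card U := by
      have := orderOf_dvd_natCard (⟨u, hu⟩ : U)
      rwa [Subgroup.orderOf_mk] at this
    rw [hu', Subgroup.orderOf_mk]
    exact Nat.Coprime.coprime_dvd_left h3 ((Nat.Prime.coprime_iff_not_dvd hqp).mpr hUq).symm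
  exact ⟨u', mem_core_of_coprime h1 h2, rfl⟩

end Cfsg.Agent.Lib.Helper9.Sig
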