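import Mathlib

set_option autoImplicit false

/-! Evaluation of the transfer modulo a kernel. -/

namespace Cfsg.Agent.Lib.Helper9.Trf

open MonoidHom Subgroup MulAction

theorem transfer_eq_pow_mod {G A : Type*} [Group G] [CommGroup A] {H : Subgroup G} [H.FiniteIndex]
    (ϕ : H →* A) (g : G) (c : A)
    (key : ∀ (k : ℕ) (g₀ : G) (hk : g₀⁻¹ * g ^ k * g₀ ∈ H), ϕ ⟨g₀⁻¹ * g ^ k * g₀, hk⟩ = c ^ k) :
    transfer ϕ g = c ^ H.index := by
  classical
  let := H.fintypeQuotientOfFiniteIndex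
  rw [transfer_eq_prod_quotient_orbitRel_zpowers_quot, index_eq_sum_minimalPeriod H g,
    ← Finset.prod_pow_eq_pow_sum]
  exact Finset.prod_congr rfl (fun q _ => key _ _ _)

theorem eq_one_of_pow_coprime {A : Type*} [Group A] {p : ℕ} {z : A} {j k : ℕ}
    (hz : z ^ p ^ k = 1) (hj : Nat.Coprime p j) (h : z ^ j = 1) : z = 1 := by
  rw [← orderOf_eq_one_iff]
  exact Nat.eq_one_of_dvd_coprimes (Nat.Coprime.pow_left k hj) (orderOf_dvd_of_pow_eq_one hz)
    (orderOf_dvd_of_pow_eq_one h)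

end Cfsg.Agent.Lib.Helper9.Trf
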